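import Mathlib
import Cfsg.Agent.H365.Zsig

/-!
# Values of cyclotomic polynomials (helper363, TEAM TWOCYC)
-/

set_option autoImplicit false

namespace Cfsg.Agent.H363.Cyc.CycNum

open Polynomial

theorem eval_pos {q : ℕ} (hq : 2 ≤ q) (d : ℕ) : 0 < (cyclotomic d ℤ).eval (q : ℤ) :=
  cyclotomic_pos' d (by exact_mod_cast hq)

theorem eval_le {q : ℕ} (hq : 2 ≤ q) (d : ℕ) : (cyclotomic d ℤ).eval (q : ℤ) ≤ ((q : ℤ) + 1) ^ Nat.totient d := by
  have h1 := cyclotomic_eval_le_add_one_pow_totient (q := (q : ℝ)) (by exact_mod_cast hq) d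
  have h2 : (cyclotomic d ℝ).eval (q : ℝ) = (((cyclotomic d ℤ).eval (q : ℤ) : ℤ) : ℝ) := by
    rw [← map_cyclotomic_int d ℝ]
    have h3 := eval_intCast_map (Int.castRingHom ℝ) (cyclotomic d ℤ) (q : ℤ)
    rw [Int.cast_natCast] at h3
    rw [h3]
    simp
  rw [h2] at h1
  exact_mod_cast h1

/-- **The bound `(q + 1)^l`.** -/
theorem prod_le {q l : ℕ} (hq : 2 ≤ q) {S : Finset ℕ} (hS : ∑ d ∈ S, Nat.totient d ≤ l) {n : ℕ}
    (hn : (n : ℤ) ∣ ∏ d ∈ S, (cyclotomic d ℤ).eval (q : ℤ)) : n ≤ (q + 1) ^ l := by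
  have h1 : (n : ℤ) ≤ ∏ d ∈ S, (cyclotomic d ℤ).eval (q : ℤ) :=
    Int.le_of_dvd (Finset.prod_pos fun d _ => eval_pos hq d) hn
  have h2 : ∏ d ∈ S, (cyclotomic d ℤ).eval (q : ℤ) ≤ ∏ d ∈ S, ((q : ℤ) + 1) ^ Nat.totient d :=
    Finset.prod_le_prod (fun d _ => (eval_pos hq d).le) fun d _ => eval_le hq d
  rw [Finset.prod_pow_eq_pow_sum] at h2
  have h3 : ((q : ℤ) + 1) ^ (∑ d ∈ S, Nat.totient d) ≤ ((q : ℤ) + 1) ^ l :=
    pow_le_pow_right₀ (by omega) hS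
  exact_mod_cast (h1.trans h2).trans h3

/-- values from the factorization of `q ^ n - 1` -/
theorem eval_of {n : ℕ} (hn : 0 < n) (q : ℤ) :
    ∏ d ∈ n.divisors, (cyclotomic d ℤ).eval q = q ^ n - 1 := by
  rw [← eval_prod, prod_cyclotomic_eq_X_pow_sub_one hn]
  simp

theorem eval_mul {n : ℕ} (hn : 0 < n) (q : ℤ) :
    (cyclotomic n ℤ).eval q * ∏ d ∈ n.properDivisors, (cyclotomic d ℤ).eval q = q ^ n - 1 := by
  rw [← eval_of hn q, ← Nat.cons_self_properDivisors hn.ne', Finset.prod_cons]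

theorem eval_eq {n : ℕ} (hn : 0 < n) {q v c : ℤ} (hc : ∏ d ∈ n.properDivisors, (cyclotomic d ℤ).eval q = c)
    (h0 : c ≠ 0) (h : v * c = q ^ n - 1) : (cyclotomic n ℤ).eval q = v := by
  have h1 := eval_mul hn q
  rw [hc, ← h] at h1
  exact mul_right_cancel₀ h0 h1

/-- the small values of the totient function -/
theorem mem_of_totient {S : Finset ℕ} (h0 : ∀ d ∈ S, 0 < d) {l m : ℕ} (hl : ∑ d ∈ S, Nat.totient d ≤ l)
    (hm : 2 * l ^ 2 ≤ m) : S ⊆ (Finset.Icc 1 m).filter fun d => Nat.totient d ≤ l := by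
  intro d hd
  have h2 : Nat.totient d ≤ l := (Finset.single_le_sum (f := Nat.totient) (fun _ _ => Nat.zero_le _) hd).trans hl
  have h3 := H365.Zsig.le_two_mul_totient_sq (h0 d hd)
  have h4 : Nat.totient d ^ 2 ≤ l ^ 2 := Nat.pow_le_pow_left h2 2
  rw [Finset.mem_filter, Finset.mem_Icc]
  exact ⟨⟨h0 d hd, by omega⟩, h2⟩

end Cfsg.Agent.H363.Cyc.CycNum
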