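import Cfsg.Agent.H384.LargeIdx
import Cfsg.Agent.H318.RepTwE
import Cfsg.Agent.TwoESix.SheetMM
import Cfsg.Agent.S2153
import Cfsg.Agent.S1070

/-!
# Proper subgroups of `²E₆(2)` have index at least `1376256` (helper363, TEAM TWOCYC)

From the extraspecial subgroup `2^{1+20}` of the centraliser `2^{1+20}:U₆(2)` of a root involution.
-/

set_option autoImplicit false

namespace Cfsg.Agent.H363.Cyc.IdxTwE6Two

open Cfsg Cfsg.Lie Cfsg.Agent.H867.MinIdx
open Cfsg.Agent.TwoESix Cfsg.Agent.TwoESix.SheetD Cfsg.Agent.TwoESix.FlagH Cfsg.Agent.TwoESix.LeviA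
open Cfsg.Agent.ChevalleyStructure.TwE6Basic Cfsg.Agent.TwoESix.LongCard Cfsg.Agent.TwoESix.LongPairs

universe u

theorem psu62 {F : Type u} [Field F] [Fintype F] (hF : Fintype.card F = 2 ^ 2) : MI (PSU 6 F 2) 672 := by
  apply MI.of_index
  intro K hK
  have h := (Cfsg.Agent.S2153.result hF 6 dvd_rfl le_rfl).1 K hK
  norm_num at h
  exact h

theorem mi {K : Type u} [Field K] [Fintype K] {φ : K →+* K} (F : Four K φ) : MI ↥(twistedE6 K 2) 1376256 := by
  have := finite_E (K := K)
  have : IsSimpleGroup ↥(twistedE6 K 2) := (S1070.result (K := K) (q := 2) Nat.prime_two.isPrimePow (hF4 F)).1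
  obtain ⟨ψ, hψ, hker, -⟩ := exists_chart F
  have hc : Nat.card ↥(RE K) = 2 ^ (2 * 10 + 1) := by
    have h1 := H318.RepTwE.dvd_card_RE F
    have h2 := SheetMM.card_RE_le F
    have h3 := Nat.le_of_dvd Nat.card_pos h1
    exact le_antisymm h2 h3
  exact H384.LargeIdx.mi (SheetA.large F) hc (SheetA.irr F) (by norm_num) ψ hψ hker (psu62 (hF4 F))
    (by norm_num) (by norm_num)

/-- **Proper subgroups of `²E₆(2)` have index at least `1376256`.** -/
theorem index_le {K : Type u} [Field K] [Fintype K] (hK : Fintype.card K = 4) (H : Subgroup ↥(twistedE6 K 2))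
    (hH : H ≠ ⊤) : 1376256 ≤ H.index := by
  have := finite_E (K := K)
  obtain ⟨-, φ, F⟩ := LeviA.exists_four K hK
  exact (mi F).index H hH

end Cfsg.Agent.H363.Cyc.IdxTwE6Two
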