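import Cfsg.Agent.Tits.Roots

/-!
# Weyl group elements killed by `Φ₃ Φ₄` (helper363, TEAM TWOCYC)

`w ∈ W`, `w⁴ + w³ + 2 w² + w + 1 = 0` on the root lattice: every simple root is fixed by `w³` or negated by `w²`
(`cases`); for a diagram with a chain `0 - 1 - 2 - 3` this gives `w³ = 1` or `w² = -1` (`chain`).
-/

set_option autoImplicit false

namespace Cfsg.Agent.H363.Cyc.NoThreeFour

open CoxeterSystem Cfsg.Agent.ChevalleyStructure.CoxeterGeom Cfsg.Agent.Tits.Roots

variable {I W : Type*} [Fintype I] [DecidableEq I] [Group W] [Finite W] {M : CoxeterMatrix I}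
  (cs : CoxeterSystem M W) {A : I → I → ℤ} (h : IsCartan M A)

theorem sr_ne_zero' (i : I) : (sr i : I → ℤ) ≠ 0 := by
  intro h0
  have := congrFun h0 i
  rw [sr_self] at this
  exact one_ne_zero this

include h in
/-- The cases for a simple root. -/
theorem cases {w : W} (hw : ∀ x, rep cs h w (rep cs h w (rep cs h w (rep cs h w x))) + rep cs h w (rep cs h w (rep cs h w x)) +
    ((2 : ℤ) • rep cs h w (rep cs h w x) + (rep cs h w x + x)) = 0) (i : I) :
    rep cs h w (rep cs h w (rep cs h w (sr i))) = sr i ∨ rep cs h w (rep cs h w (sr i)) = - sr i := by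
  classical
  have := Fintype.ofFinite W
  set n := form cs h (sr i) (sr i) with hn
  have hn0 : 0 < n := form_pos cs h (sr_ne_zero' i)
  set a1 := rep cs h w (sr i) with ha1
  set a2 := rep cs h w a1 with ha2
  set a3 := rep cs h w a2 with ha3
  set a4 := rep cs h w a3 with ha4
  -- the values
  have f11 : form cs h a1 a1 = n := form_rep cs h w _ _
  have f22 : form cs h a2 a2 = n := (form_rep cs h w _ _).trans f11
  have f33 : form cs h a3 a3 = n := (form_rep cs h w _ _).trans f22
  have f21 : form cs h a2 a1 = form cs h a1 (sr i) := form_rep cs h w _ _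
  have f32 : form cs h a3 a2 = form cs h a1 (sr i) := (form_rep cs h w _ _).trans f21
  have f31 : form cs h a3 a1 = form cs h a2 (sr i) := form_rep cs h w _ _
  have f42 : form cs h a4 a2 = form cs h a2 (sr i) := (form_rep cs h w _ _).trans f31
  have f41 : form cs h a4 a1 = form cs h a3 (sr i) := form_rep cs h w _ _
  have h0 := hw (sr i)
  have e2 : form cs h (a4 + a3 + ((2 : ℤ) • a2 + (a1 + sr i))) a2 = 0 := by
    rw [h0, form_comm, form_zero_right]
  have e1 : form cs h (a4 + a3 + ((2 : ℤ) • a2 + (a1 + sr i))) a1 = 0 := by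
    rw [h0, form_comm, form_zero_right]
  rw [form_add_left, form_add_left, form_add_left, form_add_left, form_smul_left, f42, f32, f22,
    form_comm cs h a1 a2, f21, form_comm cs h (sr i) a2] at e2
  rw [form_add_left, form_add_left, form_add_left, form_add_left, form_smul_left, f41, f31, f21, f11,
    form_comm cs h (sr i) a1] at e1
  have c1 := two_form cs h i a1
  have c2 := two_form cs h i a2
  have c3 := two_form cs h i a3
  rw [← hn] at c1 c2 c3
  have bd : ∀ y, form cs h y y = n → ∀ c : ℤ, 2 * form cs h y (sr i) = c * n → c ≤ 2 ∧ (c = 2 → y = sr i) ∧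
      -2 ≤ c ∧ (c = -2 → y = - sr i) := by
    intro y hy c hc
    have g1 : form cs h (y - sr i) (y - sr i) = (2 - c) * n := by
      rw [form_sub_left, form_sub_right, form_sub_right, hy, form_comm cs h (sr i) y, ← hn]
      linear_combination -hc
    have g2 : form cs h (y + sr i) (y + sr i) = (2 + c) * n := by
      rw [form_add_left, form_add_right, form_add_right, hy, form_comm cs h (sr i) y, ← hn]
      linear_combination hc
    have g1' := form_nonneg cs h (y - sr i)
    have g2' := form_nonneg cs h (y + sr i)
    rw [g1] at g1'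
    rw [g2] at g2'
    refine ⟨?_, ?_, ?_, ?_⟩
    · by_contra hlt
      push Not at hlt
      nlinarith
    · intro h2
      by_contra hne
      have := form_pos cs h (sub_ne_zero.2 hne)
      rw [g1, h2] at this
      simp at this
    · by_contra hlt
      push Not at hlt
      nlinarith
    · intro h2
      by_contra hne
      have h3 : y + sr i ≠ 0 := fun h3 => hne (eq_neg_of_add_eq_zero_left h3)
      have := form_pos cs h h3
      rw [g2, h2] at this
      simp at this
  obtain ⟨b1, -, b1', -⟩ := bd a1 f11 _ c1
  obtain ⟨b2, -, b2', b2''⟩ := bd a2 f22 _ c2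
  obtain ⟨b3, b3'', b3', -⟩ := bd a3 f33 _ c3
  set p1 := pairing A i a1
  set p2 := pairing A i a2
  set p3 := pairing A i a3
  -- `p2 = -2 - p1`, `p3 = -2 p1`
  have q2 : (p2 + 2 + p1) * n = 0 := by linear_combination -c1 - c2 + e2
  have q3 : (p3 + 2 * p1) * n = 0 := by linear_combination -c3 - 2 * c1 + 2 * e1 - e2
  have q2' : p2 + 2 + p1 = 0 := (mul_eq_zero.1 q2).resolve_right hn0.ne'
  have q3' : p3 + 2 * p1 = 0 := (mul_eq_zero.1 q3).resolve_right hn0.ne'
  have h1 : p1 = -1 ∨ p1 = 0 := by omega
  rcases h1 with h1 | h1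
  · left
    exact b3'' (by omega)
  · right
    exact b2'' (by omega)

include h in
/-- adjacent simple roots belong to the same case -/
theorem adj {w : W} {i j : I} (hij : A i j ≠ 0) (hi : rep cs h w (rep cs h w (rep cs h w (sr i))) = sr i)
    (hj : rep cs h w (rep cs h w (sr j)) = - sr j) : False := by
  classical
  have := Fintype.ofFinite W
  have e6i : rep cs h w (rep cs h w (rep cs h w (rep cs h w (rep cs h w (rep cs h w (sr i)))))) = sr i := by
    rw [hi, hi]
  have e6j : rep cs h w (rep cs h w (rep cs h w (rep cs h w (rep cs h w (rep cs h w (sr j)))))) = - sr j := by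
    rw [hj, map_neg, map_neg, hj, neg_neg, hj]
  have h2 : form cs h (sr j) (sr i) = - form cs h (sr j) (sr i) := by
    have e1 : form cs h (rep cs h w (rep cs h w (rep cs h w (rep cs h w (rep cs h w (rep cs h w (sr j)))))))
        (rep cs h w (rep cs h w (rep cs h w (rep cs h w (rep cs h w (rep cs h w (sr i))))))) =
        form cs h (sr j) (sr i) := by
      rw [form_rep, form_rep, form_rep, form_rep, form_rep, form_rep]
    rw [e6i, e6j, form_neg_left] at e1
    exact e1.symm
  have h3 := two_form cs h i (sr j)
  have h4 : form cs h (sr j) (sr i) = 0 := by omega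
  rw [h4, mul_zero] at h3
  have h5 : pairing A i (sr j) = A i j := by
    unfold sr
    rw [pairing_single, mul_one]
  rw [h5] at h3
  rcases mul_eq_zero.1 h3.symm with h6 | h6
  · exact hij h6
  · exact (form_pos cs h (sr_ne_zero' i)).ne' h6

end Cfsg.Agent.H363.Cyc.NoThreeFour
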