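import Cfsg.Agent.H363.Cyc.TorTwE6
import Cfsg.Agent.H363.Cyc.NoThreeFour
import Cfsg.Agent.H363.Cyc.CycTab
import Cfsg.Agent.H363.Cyc.ExpTab
import Cfsg.Agent.S1062

/-!
# Element orders of `F₄(q)` (helper363, TEAM TWOCYC)

* `ss_le` : elements of order prime to the characteristic have order `≤ (q + 1)⁴`; `≤ 21` for `q = 2`, `≤ 121` for `q = 3`.
-/

set_option autoImplicit false

namespace Cfsg.Agent.H363.Cyc.OrdF4

open CoxeterSystem Cfsg Cfsg.Lie Cfsg.Lie.ChevalleyDatum Polynomial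
open Cfsg.Agent.ChevalleyStructure Cfsg.Agent.ChevalleyStructure.CoxeterGeom
  Cfsg.Agent.ChevalleyStructure.CoxeterGeomTypes
open Cfsg.Agent.Tits.Roots Cfsg.Agent.Nodes Cfsg.Agent.Nodes.RGDChev Cfsg.Agent.H92.TorExp
open Cfsg.Agent.H363.Cyc.TorTwE6 Cfsg.Agent.H363.Cyc.NoThreeFour Cfsg.Agent.H363.Cyc.CycNum

universe u

theorem hp : IsType chevF4 4 CoxeterMatrix.F₄ := by simp [IsType, typeList]

theorem adj01 : cartanOf chevF4 4 0 1 ≠ 0 ∧ cartanOf chevF4 4 1 2 ≠ 0 ∧ cartanOf chevF4 4 2 3 ≠ 0 ∧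
    cartanOf chevF4 4 1 0 ≠ 0 ∧ cartanOf chevF4 4 2 1 ≠ 0 ∧ cartanOf chevF4 4 3 2 ≠ 0 := by decide +kernel

theorem cyc_four : cyclotomic 4 ℤ = X ^ 2 + 1 := by
  have h := cyclotomic_prime_pow_eq_geom_sum (R := ℤ) (n := 1) Nat.prime_two
  rw [show (2 : ℕ) ^ (1 + 1) = 4 by norm_num] at h
  rw [h, Finset.sum_range_succ, Finset.sum_range_one]
  ring

/-- `Φ₃ Φ₄` -/
theorem three_four {W : Type*} [Group W] [Finite W] (cs : CoxeterSystem CoxeterMatrix.F₄ W) {w : W}
    (h : aeval (rep cs hp.isCartan w) (∏ d ∈ ({3, 4} : Finset ℕ), cyclotomic d ℤ) = 0) :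
    aeval (rep cs hp.isCartan w) (X ^ 3 - 1 : ℤ[X]) = 0 ∨ aeval (rep cs hp.isCartan w) (X ^ 2 + 1 : ℤ[X]) = 0 := by
  set θ := rep cs hp.isCartan w with hθ
  have e : ∏ d ∈ ({3, 4} : Finset ℕ), cyclotomic d ℤ = X ^ 4 + X ^ 3 + ((X ^ 2 + X ^ 2) + (X + 1)) := by
    rw [Finset.prod_pair (by norm_num), cyclotomic_three, cyc_four]
    ring
  have hw : ∀ x, θ (θ (θ (θ x))) + θ (θ (θ x)) + ((2 : ℤ) • θ (θ x) + (θ x + x)) = 0 := by
    intro x
    rw [e] at h
    have h1 := LinearMap.congr_fun h x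
    have e4 : (θ ^ 4) x = θ (θ (θ (θ x))) := rfl
    have e3 : (θ ^ 3) x = θ (θ (θ x)) := rfl
    have e2 : (θ ^ 2) x = θ (θ x) := rfl
    rw [← e4, ← e3, ← e2, two_smul]
    simpa using h1
  have c := fun i => cases cs hp.isCartan hw i
  obtain ⟨a01, a12, a23, a10, a21, a32⟩ := adj01
  have hI : ∀ i j, cartanOf chevF4 4 i j ≠ 0 → θ (θ (θ (sr i))) = sr i → θ (θ (θ (sr j))) = sr j := by
    intro i j hij hi
    rcases c j with h1 | h1
    · exact h1
    · exact (adj cs hp.isCartan hij hi h1).elim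
  rcases c 0 with h0 | h0
  · left
    have h1 := hI 0 1 a01 h0
    have h2 := hI 1 2 a12 h1
    have h3 := hI 2 3 a23 h2
    refine LinearMap.pi_ext' fun i => LinearMap.ext_ring ?_
    have key : θ (θ (θ (sr i))) = sr i := by
      fin_cases i
      · exact h0
      · exact h1
      · exact h2
      · exact h3
    have e3 : (θ ^ 3) (sr i) = sr i := key
    have e5 : (aeval θ (X ^ 3 - 1 : ℤ[X])) (sr i) = 0 := by
      rw [map_sub, map_pow, aeval_X, map_one, LinearMap.sub_apply, e3, Module.End.one_apply, sub_self]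
    exact e5
  · right
    have hJ : ∀ i j, cartanOf chevF4 4 j i ≠ 0 → θ (θ (sr i)) = - sr i → θ (θ (sr j)) = - sr j := by
      intro i j hij hi
      rcases c j with h1 | h1
      · exact (adj cs hp.isCartan hij h1 hi).elim
      · exact h1
    have h1 := hJ 0 1 a10 h0
    have h2 := hJ 1 2 a21 h1
    have h3 := hJ 2 3 a32 h2
    refine LinearMap.pi_ext' fun i => LinearMap.ext_ring ?_
    have key : θ (θ (sr i)) = - sr i := by
      fin_cases i
      · exact h0
      · exact h1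
      · exact h2
      · exact h3
    have e3 : (θ ^ 2) (sr i) = - sr i := key
    have e5 : (aeval θ (X ^ 2 + 1 : ℤ[X])) (sr i) = 0 := by
      rw [map_add, map_pow, aeval_X, map_one, LinearMap.add_apply, e3, Module.End.one_apply, neg_add_cancel]
    exact e5

variable {F : Type u} [Field F] [Fintype F] {r : ℕ} [Fact r.Prime] [CharP F r]

/-- orders of the semisimple elements -/
theorem ss {x : ↥(chevF4.group F)} (hx : (orderOf x).Coprime r) :
    (∃ S : Finset ℕ, (∀ d ∈ S, 0 < d) ∧ ∑ d ∈ S, Nat.totient d ≤ 4 ∧ S ≠ {3, 4} ∧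
      (orderOf x : ℤ) ∣ ∏ d ∈ S, (cyclotomic d ℤ).eval (Fintype.card F : ℤ)) ∨
    (orderOf x : ℤ) ∣ (Fintype.card F : ℤ) ^ 3 - 1 ∨ (orderOf x : ℤ) ∣ (Fintype.card F : ℤ) ^ 2 + 1 := by
  let cs := CoxeterMatrix.F₄.toCoxeterSystem
  have hW : Finite CoxeterMatrix.F₄.Group := finite_W hp cs
  obtain ⟨w, hw⟩ := exp_untw hp cs hx
  obtain ⟨S, h1, h2, h3⟩ := exists_set_end (rep cs hp.isCartan w) (n := Nat.card CoxeterMatrix.F₄.Group) Nat.card_pos
    (by rw [← map_pow, pow_card_eq_one', map_one])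
  by_cases hS : S = {3, 4}
  · right
    rw [hS] at h3
    rcases three_four cs h3 with h4 | h4
    · left
      have := hw _ h4
      simpa using this
    · right
      have := hw _ h4
      simpa using this
  · left
    refine ⟨S, h1, h2, hS, ?_⟩
    rw [← eval_prod]
    exact hw _ h3

theorem ss_le {x : ↥(chevF4.group F)} (hx : (orderOf x).Coprime r) : orderOf x ≤ (Fintype.card F + 1) ^ 4 := by
  let cs := CoxeterMatrix.F₄.toCoxeterSystem
  have hW : Finite CoxeterMatrix.F₄.Group := finite_W hp cs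
  obtain ⟨S, h1, h2, h3⟩ := ord_untw hp cs hx
  exact prod_le Fintype.one_lt_card h2 h3

theorem ss_three (hF : Fintype.card F = 3) {x : ↥(chevF4.group F)} (hx : (orderOf x).Coprime r) :
    orderOf x ≤ 121 := by
  rcases ss hx with ⟨S, h1, h2, h3, h4⟩ | h | h
  · rw [hF] at h4
    rcases bound_three h1 h2 h4 with h5 | h5
    · exact h5
    · exact absurd h5 h3
  · rw [hF] at h
    have := Int.le_of_dvd (by norm_num) h
    norm_num at this
    omega
  · rw [hF] at h
    have := Int.le_of_dvd (by norm_num) h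
    norm_num at this
    omega

theorem ss_two (hF : Fintype.card F = 2) {x : ↥(chevF4.group F)} (hx : (orderOf x).Coprime r) :
    orderOf x ≤ 21 := by
  rcases ss hx with ⟨S, h1, h2, h3, h4⟩ | h | h
  · rw [hF] at h4
    rcases bound_two h1 h2 h4 with h5 | h5 | h5
    · exact h5
    · exact absurd h5 h3
    · have h6 : orderOf x ∣ Nat.card ↥(chevF4.group F) := orderOf_dvd_natCard x
      have h7 := Cfsg.Agent.S1062.result (F := F) (q := 2) hF
      have h8 : ¬ 31 ∣ Nat.card ↥(chevF4.group F) := by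
        rw [h7]
        norm_num
      rcases (Nat.dvd_prime (by norm_num : Nat.Prime 31)).1 h5 with h9 | h9
      · omega
      · rw [h9] at h6
        exact absurd h6 h8
  · rw [hF] at h
    have := Int.le_of_dvd (by norm_num) h
    norm_num at this
    omega
  · rw [hF] at h
    have := Int.le_of_dvd (by norm_num) h
    norm_num at this
    omega

end Cfsg.Agent.H363.Cyc.OrdF4
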