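import Cfsg.Agent.H92.TorExp
import Cfsg.Agent.H129.TwE6Fr

/-!
# Orders of the semisimple elements of `²E₆(q)` (helper363, TEAM TWOCYC)

`x ∈ ²E₆(q)` of order prime to the characteristic: `|x|` divides `∏_{d ∈ S} Φ_d(q)`, `S` a finite set with
`∑_{d ∈ S} φ(d) ≤ 6`.
-/

set_option autoImplicit false

namespace Cfsg.Agent.H363.Cyc.TorTwE6

open CoxeterSystem Cfsg Cfsg.Lie Cfsg.Lie.ChevalleyDatum Polynomial
open Cfsg.Agent.ChevalleyStructure Cfsg.Agent.ChevalleyStructure.Elts Cfsg.Agent.ChevalleyStructure.CoxeterGeom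
  Cfsg.Agent.ChevalleyStructure.CoxeterGeomTypes Cfsg.Agent.ChevalleyStructure.NPerm
open Cfsg.Agent.Tits.Roots Cfsg.Agent.Tits.Core Cfsg.Agent.Nodes Cfsg.Agent.Nodes.Reps Cfsg.Agent.Nodes.BNOf
  Cfsg.Agent.Nodes.RGDChev Cfsg.Agent.Nodes.Bruhat
open Cfsg.Agent.KFacts.RgdField Cfsg.Agent.KFacts.RgdChevCoord Cfsg.Agent.BpExc.TorCent Cfsg.Agent.BpExc.TorChev
open Cfsg.Agent.GpExc.Field Cfsg.Agent.BpExc.Tow Cfsg.Agent.BpExc.TowChev Cfsg.Agent.BpExc.Fr
  Cfsg.Agent.BpExc.LangFr Cfsg.Agent.LangThm Cfsg.Agent.BpExc Cfsg.Agent.H129.TorusChar Cfsg.Agent.H129.TorusMain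
  Cfsg.Agent.H129.TorusUntw Cfsg.Agent.H129.TwE6Fr Cfsg.Agent.H92.TorExp

universe u

/-- an injective endomorphism of `ℤ^l` permuting the roots has finite order -/
theorem exists_pow_eq_one {W : Type*} [Group W] [Finite W] {l : ℕ} {M : CoxeterMatrix (Fin l)}
    {A : Fin l → Fin l → ℤ} (cs : CoxeterSystem M W) (h : IsCartan M A) (θ : Module.End ℤ (Fin l → ℤ))
    (hinj : Function.Injective θ) (hθ : ∀ x, IsRoot cs h x → IsRoot cs h (θ x)) : ∃ n, 0 < n ∧ θ ^ n = 1 := by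
  have hfin : Finite {x // IsRoot cs h x} := by
    refine Finite.of_surjective (fun p : W × Fin l => (⟨rep cs h p.1 (sr p.2), (isRoot_sr cs h p.2).act p.1⟩ :
      {x // IsRoot cs h x})) ?_
    rintro ⟨x, w, i, rfl⟩
    exact ⟨(w, i), rfl⟩
  let f : {x // IsRoot cs h x} → {x // IsRoot cs h x} := fun x => ⟨θ x, hθ x x.2⟩
  have hf : Function.Injective f := fun x y hxy => Subtype.ext (hinj (congrArg Subtype.val hxy))
  let σ : Equiv.Perm {x // IsRoot cs h x} := Equiv.ofBijective f (Finite.injective_iff_bijective.1 hf)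
  have : Finite (Equiv.Perm {x // IsRoot cs h x}) := inferInstance
  refine ⟨orderOf σ, orderOf_pos σ, ?_⟩
  have h1 : ∀ (n : ℕ) (x : {x // IsRoot cs h x}), (((σ ^ n) x : {x // IsRoot cs h x}) : Fin l → ℤ) = (θ ^ n) x := by
    intro n
    induction n with
    | zero => intro x; rfl
    | succ n ih =>
      intro x
      rw [pow_succ, pow_succ, Equiv.Perm.mul_apply, ih, Module.End.mul_apply]
      rfl
  have h2 : ∀ i, (θ ^ orderOf σ) (sr i) = sr i := by
    intro i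
    have h3 := h1 (orderOf σ) ⟨sr i, isRoot_sr cs h i⟩
    rw [pow_orderOf_eq_one] at h3
    exact h3.symm
  refine LinearMap.ext fun x => ?_
  rw [Module.End.one_apply, IsMC.eq_sum_sr x, map_sum]
  refine Finset.sum_congr rfl fun i _ => ?_
  rw [map_smul, h2]

/-- a product of cyclotomic polynomials annihilating an endomorphism of finite order -/
theorem exists_set_end {l : ℕ} (θ : Module.End ℤ (Fin l → ℤ)) {n : ℕ} (hn : 0 < n) (hθ : θ ^ n = 1) :
    ∃ S : Finset ℕ, (∀ d ∈ S, 0 < d) ∧ ∑ d ∈ S, Nat.totient d ≤ l ∧ aeval θ (∏ d ∈ S, cyclotomic d ℤ) = 0 := by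
  set A : Matrix (Fin l) (Fin l) ℤ := LinearMap.toMatrixAlgEquiv' (R := ℤ) (n := Fin l) θ with hAdef
  have hAn : A ^ n = 1 := by
    rw [hAdef, ← map_pow, hθ, map_one]
  obtain ⟨S, h1, h2, h3⟩ := exists_set hn hAn
  refine ⟨S, h1, h2, ?_⟩
  have h4 : (LinearMap.toMatrixAlgEquiv' (R := ℤ) (n := Fin l)) (aeval θ (∏ d ∈ S, cyclotomic d ℤ)) = 0 := by
    rw [← h3, hAdef]
    exact (Polynomial.aeval_algHom_apply (LinearMap.toMatrixAlgEquiv' (R := ℤ) (n := Fin l)).toAlgHom _ _).symm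
  exact (map_eq_zero_iff _ (LinearMap.toMatrixAlgEquiv' (R := ℤ) (n := Fin l)).injective).1 h4

/-- **Orders of the semisimple elements of `²E₆(q)`.** -/
theorem ord_twE6 {K : Type u} [Field K] [Fintype K] {q : ℕ} (hq : IsPrimePow q) (hK : Fintype.card K = q ^ 2)
    {r : ℕ} [Fact r.Prime] [hKr : CharP K r] {x : ↥(twistedE6 K q)} (hx : (orderOf x).Coprime r) :
    ∃ S : Finset ℕ, (∀ d ∈ S, 0 < d) ∧ ∑ d ∈ S, Nat.totient d ≤ 6 ∧
      (orderOf x : ℤ) ∣ ∏ d ∈ S, (cyclotomic d ℤ).eval (q : ℤ) := by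
  have hp : IsType chevE6 6 CoxeterMatrix.E₆ := RGDTwE6.hp
  let cs := CoxeterMatrix.E₆.toCoxeterSystem
  obtain ⟨p, e2, hpF, hpc, hpk, he, hq2, hk⟩ := Cfsg.Agent.H129.TorusUntw.exists_closure (F := K) (q := Fintype.card K) rfl
  have hpr : p = r := CharP.eq K hpc hKr
  subst hpr
  -- `q = p ^ e`
  obtain ⟨e, he'⟩ : ∃ e, q = p ^ e := by
    have h1 : q ∣ p ^ e2 := by
      rw [← hq2, hK, pow_two]
      exact dvd_mul_right _ _
    obtain ⟨e, -, he⟩ := (Nat.dvd_prime_pow hpF.out).1 h1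
    exact ⟨e, he⟩
  let k := AlgebraicClosure K
  have hA : BpExc.TorAll.HAlg p k := H944.RootVals.hAlg_closure p K
  have hN : NSys CoxeterMatrix.E₆ (TT chevE6 k) (nc hp k) := nsys_of_locFin hp cs hk p
  set f := algebraMap K k with hf
  set x' : ↥(chevE6.group k) := embT f hq hK x with hx'
  have hxo : orderOf x' = orderOf x := orderOf_injective (embT f hq hK) (embT_injective f hq hK) x
  have hfinx : Finite ↥(twistedE6 K q) := Finite.of_injective (Subtype.val) Subtype.val_injective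
  have hx0 : orderOf x ≠ 0 := (orderOf_pos x).ne'
  have hW : Finite CoxeterMatrix.E₆.Group := finite_W hp cs
  obtain ⟨w, hw⟩ := toral_exp hp cs hA hk (isFrob_tau (k := k) (p := p) (e := e)) (fr_tau cs) hN (x := x')
    (tau_embT f he' hq hK x) hx0 hx (by rw [← hxo, pow_orderOf_eq_one])
  have hinj : Function.Injective ((theta hp cs w flip6).toIntLinearMap) := by
    intro a b hab
    have h1 : rep cs hp.isCartan w (flip6 a) = rep cs hp.isCartan w (flip6 b) := hab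
    have h2 := congrArg (rep cs hp.isCartan w⁻¹) h1
    rw [rep_inv_apply, rep_inv_apply] at h2
    exact flip6.injective h2
  obtain ⟨n, hn, hθ⟩ := exists_pow_eq_one cs hp.isCartan ((theta hp cs w flip6).toIntLinearMap) hinj
    (fun y hy => (isRoot_flip cs y hy).act w)
  obtain ⟨S, h1, h2, h3⟩ := exists_set_end _ hn hθ
  refine ⟨S, h1, h2, ?_⟩
  have h4 := hw _ h3
  rw [hxo, ← he', eval_prod] at h4
  exact h4

end Cfsg.Agent.H363.Cyc.TorTwE6
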